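import Mathlib
import Cfsg.Prelude.Def_Transfer
import Cfsg.Agent.Lib.NormalAbelian

/-!
# 2-groups without a self-centralizing normal subgroup containing an `E₈`, with a group of odd automorphisms: basics

* `card_le_four`: normal subgroups of exponent 2 have order at most 4;
* `mem_of_conj`: an involution commuting with a normal four-group `K` all of whose conjugates lie in its `K`-coset is in `K`;
* `prod_eq_one`, `mem_of_fixed`: if `[X, A] = X` then the norm map of `A` into an abelian group is trivial;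
* `fixed_of_fixed_involutions`: an automorphism of odd order fixing the involutions of an abelian 2-group fixes everything.
-/

set_option autoImplicit false

namespace Cfsg.Agent.H19.Scn3

open Subgroup
open scoped commutatorElement

/-- normal subgroups of exponent two have order at most four -/
def NE (X : Type*) [Group X] : Prop :=
  ∀ E : Subgroup X, E.Normal → (∀ e ∈ E, e ^ 2 = 1) → Nat.card E ≤ 4

theorem comm_of_sq {G : Type*} [Group G] (x y : G) (hx : x ^ 2 = 1) (hy : y ^ 2 = 1) (hxy : (x * y) ^ 2 = 1) :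
    x * y = y * x := by
  have h1 : x⁻¹ = x := inv_eq_of_mul_eq_one_left (by rw [← sq, hx])
  have h2 : y⁻¹ = y := inv_eq_of_mul_eq_one_left (by rw [← sq, hy])
  have h3 : (x * y)⁻¹ = x * y := inv_eq_of_mul_eq_one_left (by rw [← sq, hxy])
  rw [mul_inv_rev, h1, h2] at h3
  exact h3.symm

theorem ne_of_scn {X : Type*} [Group X] [Finite X] (hX : IsPGroup 2 X)
    (hscn : ¬ ∃ A : Subgroup X, A.Normal ∧ Subgroup.centralizer (A : Set X) = A ∧
      ∃ E : Subgroup X, E ≤ A ∧ Cfsg.IsElementaryAbelian 2 E ∧ Nat.card E = 8) : NE X := by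
  intro E hE h2
  by_contra hcon
  push Not at hcon
  have hc : ∀ x ∈ E, ∀ y ∈ E, x * y = y * x := fun x hx y hy =>
    comm_of_sq x y (h2 x hx) (h2 y hy) (h2 _ (E.mul_mem hx hy))
  have hEc : IsMulCommutative E := ⟨⟨fun x y => Subtype.ext (hc x x.2 y y.2)⟩⟩
  have : Group.IsNilpotent X := hX.isNilpotent
  obtain ⟨A, hEA, hA, -, hcA, -⟩ :=
    Cfsg.Agent.Lib.NormalAbelian.exists_normal_abelian_selfCentralizing_ge E hE hEc
  have hEp : IsPGroup 2 E := hX.to_subgroup E
  obtain ⟨n, hn⟩ := IsPGroup.iff_card.mp hEp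
  have hn3 : 3 ≤ n := by
    by_contra hlt
    have : n ≤ 2 := by omega
    have h4 : 2 ^ n ≤ 2 ^ 2 := Nat.pow_le_pow_right (by norm_num) this
    rw [← hn] at h4
    omega
  have : Fact (Nat.Prime 2) := ⟨Nat.prime_two⟩
  obtain ⟨K, hK⟩ := Sylow.exists_subgroup_card_pow_prime (G := E) 2 (n := 3) (by rw [hn]; exact pow_dvd_pow 2 hn3)
  apply hscn
  refine ⟨A, hA, hcA, K.map E.subtype, ?_, ⟨?_, ?_⟩, ?_⟩
  · rintro x ⟨y, -, rfl⟩
    exact hEA y.2
  · refine ⟨⟨?_⟩⟩
    rintro ⟨x, x', hx, rfl⟩ ⟨y, y', hy, rfl⟩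
    exact Subtype.ext (hc _ x'.2 _ y'.2)
  · rintro x hx
    obtain ⟨x', -, hx'⟩ := hx
    rw [← hx']
    exact h2 _ x'.2
  · rw [Subgroup.card_map_of_injective E.subtype_injective, hK]
    norm_num

/-- the subgroup `K ∪ xK` for an involution `x` centralizing `K` -/
def adj {X : Type*} [Group X] (K : Subgroup X) (x : X) (hx : x * x = 1) (hK : ∀ k ∈ K, x * k = k * x) :
    Subgroup X where
  carrier := {y | y ∈ K ∨ x * y ∈ K}
  one_mem' := Or.inl K.one_mem
  mul_mem' := by
    rintro a b (ha | ha) (hb | hb)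
    · exact Or.inl (K.mul_mem ha hb)
    · right
      rw [← mul_assoc, hK a ha, mul_assoc]
      exact K.mul_mem ha hb
    · right
      rw [← mul_assoc]
      exact K.mul_mem ha hb
    · left
      have h1 : a * b = (x * a) * (x * b) := by
        rw [← mul_assoc, ← hK _ ha, ← mul_assoc, hx, one_mul]
      rw [h1]
      exact K.mul_mem ha hb
  inv_mem' := by
    rintro a (ha | ha)
    · exact Or.inl (K.inv_mem ha)
    · right
      have h2 : x⁻¹ = x := inv_eq_of_mul_eq_one_left hx
      have h3 : x * a⁻¹ = (x * a)⁻¹ := by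
        have h4 := hK _ (K.inv_mem ha)
        rw [mul_inv_rev, h2, mul_assoc, hx, mul_one] at h4
        rw [mul_inv_rev, h2]
        calc x * a⁻¹ = x * (a⁻¹ * x) * x := by rw [mul_assoc, mul_assoc, hx, mul_one]
          _ = a⁻¹ * x := by rw [h4]
      rw [h3]
      exact K.inv_mem ha

theorem mem_adj {X : Type*} [Group X] (K : Subgroup X) (x : X) (hx : x * x = 1) (hK : ∀ k ∈ K, x * k = k * x)
    (y : X) : y ∈ adj K x hx hK ↔ y ∈ K ∨ x * y ∈ K := Iff.rfl

theorem mem_of_conj {X : Type*} [Group X] [Finite X] (hne : NE X) (K : Subgroup X) (hKn : K.Normal)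
    (hK2 : ∀ k ∈ K, k ^ 2 = 1) (hK4 : Nat.card K = 4) (x : X) (hx : x ^ 2 = 1)
    (hxK : ∀ k ∈ K, x * k = k * x) (hconj : ∀ g, x⁻¹ * (g * x * g⁻¹) ∈ K) : x ∈ K := by
  have hx' : x * x = 1 := by rw [← sq]; exact hx
  have hxi : x⁻¹ = x := inv_eq_of_mul_eq_one_left hx'
  set E := adj K x hx' hxK with hE
  have hKE : K ≤ E := fun k hk => Or.inl hk
  have hEn : E.Normal := by
    refine ⟨fun y hy g => ?_⟩
    rcases hy with hy | hy
    · exact Or.inl (hKn.conj_mem y hy g)
    · right
      have h1 := K.mul_mem (hconj g) (hKn.conj_mem _ hy g)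
      rw [hxi] at h1
      have h2 : x * (g * x * g⁻¹) * (g * (x * y) * g⁻¹) = x * (g * y * g⁻¹) := by
        calc x * (g * x * g⁻¹) * (g * (x * y) * g⁻¹) = x * g * (x * x) * y * g⁻¹ := by group
          _ = x * (g * y * g⁻¹) := by rw [hx']; group
      rwa [h2] at h1
  have hE2 : ∀ e ∈ E, e ^ 2 = 1 := by
    rintro y (hy | hy)
    · exact hK2 y hy
    · have h1 := hK2 _ hy
      have h2 : y = x * (x * y) := by rw [← mul_assoc, hx', one_mul]
      have h3 := hxK _ hy
      have h4 : y ^ 2 = (x * (x * y)) * (x * (x * y)) := by rw [← h2, sq]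
      have h5 : (x * (x * y)) * (x * (x * y)) = (x * y * x) * (x * (x * y)) :=
        congrArg (fun t => t * (x * (x * y))) h3
      rw [h4, h5]
      calc x * y * x * (x * (x * y)) = x * y * (x * x) * (x * y) := by group
        _ = (x * y) ^ 2 := by rw [hx', mul_one, sq]
        _ = 1 := h1
  have h4 := hne E hEn hE2
  have h5 : K = E := by
    apply Subgroup.eq_of_le_of_card_ge hKE
    rw [hK4]
    exact h4
  rw [h5]
  right
  rw [hx']
  exact K.one_mem

/-- in a group of order four and exponent two -/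
theorem four_elems {X : Type*} [Group X] [Finite X] (V : Subgroup X) (h4 : Nat.card V = 4) (hV : ∀ v ∈ V, v ^ 2 = 1)
    {z w t : X} (hz : z ∈ V) (hw : w ∈ V) (hz1 : z ≠ 1) (hw1 : w ≠ 1) (hzw : z ≠ w) (ht : t ∈ V) :
    t = 1 ∨ t = z ∨ t = w ∨ t = z * w := by
  classical
  have hzw1 : z * w ≠ 1 := by
    intro h
    have h1 := hV w hw
    rw [sq] at h1
    exact hzw (mul_right_cancel (h.trans h1.symm))
  have hS : ({1, z, w, z * w} : Set X).ncard = 4 := by
    rw [Set.ncard_eq_toFinset_card']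
    have : ({1, z, w, z * w} : Set X).toFinset = ({1, z, w, z * w} : Finset X) := by
      ext; simp
    rw [this]
    rw [Finset.card_insert_of_notMem, Finset.card_insert_of_notMem, Finset.card_insert_of_notMem,
      Finset.card_singleton]
    · simp only [Finset.mem_singleton]
      intro h
      exact hz1 (by simpa using h.symm)
    · simp only [Finset.mem_insert, Finset.mem_singleton]
      rintro (h | h)
      · exact hzw h
      · exact hw1 (by simpa using h)
    · simp only [Finset.mem_insert, Finset.mem_singleton]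
      rintro (h | h | h)
      · exact hz1 h.symm
      · exact hw1 h.symm
      · exact hzw1 h.symm
  have hsub : ({1, z, w, z * w} : Set X) ⊆ (V : Set X) := by
    rintro y (rfl | rfl | rfl | rfl)
    · exact V.one_mem
    · exact hz
    · exact hw
    · exact V.mul_mem hz hw
  have heq : ({1, z, w, z * w} : Set X) = (V : Set X) := by
    apply Set.eq_of_subset_of_ncard_le hsub
    rw [hS]
    have : (V : Set X).ncard = Nat.card V := rfl
    rw [this, h4]
  have : t ∈ ({1, z, w, z * w} : Set X) := heq ▸ ht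
  simpa using this

/-- the norm map is trivial -/
theorem prod_eq_one {X : Type*} [Group X] (A : Subgroup (MulAut X)) [Fintype A]
    (hXA : Subgroup.closure {g : X | ∃ φ ∈ A, ∃ x : X, g = x⁻¹ * φ x} = ⊤)
    {M : Type*} [CommGroup M] (f : X →* M) (x : X) : ∏ φ : A, f ((φ : MulAut X) x) = 1 := by
  let T : X →* M :=
    { toFun := fun x => ∏ φ : A, f ((φ : MulAut X) x)
      map_one' := by simp
      map_mul' := fun x y => by simp [Finset.prod_mul_distrib] }
  have hT : ∀ (ψ : A) (x : X), T ((ψ : MulAut X) x) = T x := by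
    intro ψ x
    show ∏ φ : A, f ((φ : MulAut X) ((ψ : MulAut X) x)) = ∏ φ : A, f ((φ : MulAut X) x)
    exact Equiv.prod_comp (Equiv.mulRight ψ) (fun φ : A => f ((φ : MulAut X) x))
  have hker : (⊤ : Subgroup X) ≤ T.ker := by
    rw [← hXA, Subgroup.closure_le]
    rintro g ⟨φ, hφ, x, rfl⟩
    show x⁻¹ * φ x ∈ T.ker
    rw [MonoidHom.mem_ker, map_mul, map_inv]
    have := hT ⟨φ, hφ⟩ x
    rw [this, inv_mul_cancel]
  exact hker (Subgroup.mem_top x)

/-- the quotient by a subgroup containing the derived subgroup, as a commutative group -/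
theorem pow_mem_of_fixed {X : Type*} [Group X] [Finite X] (A : Subgroup (MulAut X))
    (hXA : Subgroup.closure {g : X | ∃ φ ∈ A, ∃ x : X, g = x⁻¹ * φ x} = ⊤)
    (N : Subgroup X) [N.Normal] (hN : commutator X ≤ N) (x : X) (hx : ∀ φ ∈ A, x⁻¹ * φ x ∈ N) :
    x ^ Nat.card A ∈ N := by
  classical
  have hcomm : ∀ a b : X ⧸ N, a * b = b * a := by
    intro a b
    obtain ⟨a, rfl⟩ := QuotientGroup.mk_surjective a
    obtain ⟨b, rfl⟩ := QuotientGroup.mk_surjective b
    rw [← QuotientGroup.mk_mul, ← QuotientGroup.mk_mul, QuotientGroup.eq]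
    have h1 : (a * b)⁻¹ * (b * a) = ⁅b⁻¹, a⁻¹⁆ := by
      rw [commutatorElement_def]; group
    rw [h1]
    exact hN (commutator_mem_commutator (mem_top _) (mem_top _))
  let _ : CommGroup (X ⧸ N) := { (inferInstance : Group (X ⧸ N)) with mul_comm := hcomm }
  have : Fintype A := Fintype.ofFinite A
  have h1 := prod_eq_one A hXA (QuotientGroup.mk' N) x
  have h2 : ∀ φ : A, QuotientGroup.mk' N ((φ : MulAut X) x) = QuotientGroup.mk' N x := by
    intro φ
    exact (QuotientGroup.eq.mpr (hx φ φ.2)).symm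
  simp only [h2, Finset.prod_const, Finset.card_univ] at h1
  rw [← map_pow] at h1
  rw [Nat.card_eq_fintype_card]
  exact (QuotientGroup.eq_one_iff _).mp h1

theorem mem_of_fixed {X : Type*} [Group X] [Finite X] (hX : IsPGroup 2 X) (A : Subgroup (MulAut X))
    (hA : Odd (Nat.card A))
    (hXA : Subgroup.closure {g : X | ∃ φ ∈ A, ∃ x : X, g = x⁻¹ * φ x} = ⊤)
    (N : Subgroup X) [N.Normal] (hN : commutator X ≤ N) (x : X) (hx : ∀ φ ∈ A, x⁻¹ * φ x ∈ N) :
    x ∈ N := by
  have h1 := pow_mem_of_fixed A hXA N hN x hx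
  have hcop : (Nat.card A).Coprime (orderOf x) := by
    obtain ⟨k, hk⟩ := hX x
    have h3 : orderOf x ∣ 2 ^ k := orderOf_dvd_of_pow_eq_one hk
    have h4 : (Nat.card A).Coprime (2 ^ k) := Nat.Coprime.pow_right k (Nat.coprime_two_right.mpr hA)
    exact h4.coprime_dvd_right h3
  obtain ⟨m, hm⟩ := exists_pow_eq_self_of_coprime hcop
  rw [← hm]
  exact N.pow_mem h1 m

/-- An automorphism of odd order fixing the involutions of an invariant abelian 2-subgroup fixes the subgroup. -/
theorem fixed_of_fixed_involutions {X : Type*} [Group X] (B : Subgroup X)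
    (hB : ∀ x ∈ B, ∀ y ∈ B, x * y = y * x) (φ : MulAut X) (hφB : ∀ b ∈ B, φ b ∈ B) (n : ℕ) (hn : Odd n)
    (hφ : φ ^ n = 1) (hfix : ∀ b ∈ B, b ^ 2 = 1 → φ b = b) (k : ℕ) :
    ∀ b ∈ B, b ^ 2 ^ k = 1 → φ b = b := by
  induction k with
  | zero =>
    intro b _ h
    have : b = 1 := by simpa using h
    rw [this, map_one]
  | succ k ih =>
    intro b hb h
    have h1 : (b ^ 2) ^ 2 ^ k = 1 := by rw [← pow_mul, ← pow_succ']; exact h
    have h2 := ih (b ^ 2) (B.pow_mem hb 2) h1
    rw [map_pow] at h2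
    set c := b⁻¹ * φ b with hc
    have hcB : c ∈ B := B.mul_mem (B.inv_mem hb) (hφB b hb)
    have hc2 : c ^ 2 = 1 := by
      have hcm : Commute b⁻¹ (φ b) := hB _ (B.inv_mem hb) _ (hφB b hb)
      rw [hc, hcm.mul_pow, h2, inv_pow, inv_mul_cancel]
    have hφc := hfix c hcB hc2
    have hφb : φ b = b * c := by rw [hc]; group
    have hpow : ∀ i : ℕ, (φ ^ i) b = b * c ^ i := by
      intro i
      induction i with
      | zero => simp
      | succ i ih2 =>
        rw [pow_succ', MulAut.mul_apply, ih2, map_mul, map_pow, hφc, hφb, mul_assoc, ← pow_succ']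
    have h3 := hpow n
    rw [hφ, MulAut.one_apply] at h3
    have h4 : c ^ n = 1 := by simpa using h3
    obtain ⟨m, rfl⟩ := hn
    rw [pow_succ, pow_mul, hc2, one_pow, one_mul] at h4
    rw [hφb, h4, mul_one]

end Cfsg.Agent.H19.Scn3
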