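import Mathlib
import Cfsg.Agent.H19.Scn3.CountFour
import Cfsg.Agent.Lib.FrattiniBasic
import Cfsg.Agent.SmallSimple.OrderEight

/-!
# Special 2-groups with `NE` and odd automorphisms: the final list
-/

set_option autoImplicit false

namespace Cfsg.Agent.H19.Scn3

open Subgroup
open scoped commutatorElement
open Cfsg.Agent.Transfer.CentralComm Cfsg.Agent.Transfer.Extraspecial

section Two

variable {X : Type*} [Group X] [Finite X] {A : Subgroup (MulAut X)} (h : HS X A)

include h

theorem HS.special : Cfsg.IsSpecial 2 X := by
  have : Fact (Nat.Prime 2) := ⟨Nat.prime_two⟩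
  refine ⟨h.p2, le_antisymm ?_ ?_, h.eq⟩
  · exact Cfsg.Agent.Lib.FrattiniBasic.frattini_le_of_elementary (p := 2) (center X) h.eq.le h.sq
  · rw [← h.eq]
    exact Cfsg.Agent.Lib.FrattiniBasic.commutator_le_frattini h.p2

theorem HS.not_dihedral : IsEmpty (X ≃* DihedralGroup 4) := by
  refine ⟨fun e => ?_⟩
  have h1 : ∀ y : DihedralGroup 4, y ^ 2 ≠ 1 → y = DihedralGroup.r 1 ∨ y = (DihedralGroup.r 1)⁻¹ := by decide
  set x := e.symm (DihedralGroup.r 1) with hx
  have hex : e x = DihedralGroup.r 1 := by rw [hx, MulEquiv.apply_symm_apply]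
  have hx2 : x ^ 2 ≠ 1 := by
    intro h2
    have h3 := congrArg e h2
    rw [map_pow, hex, map_one] at h3
    revert h3
    decide
  have hxZ : x ∈ center X := by
    apply h.fix
    intro φ _
    have h4 : (φ x) ^ 2 ≠ 1 := by
      rw [← map_pow]
      intro h5
      exact hx2 ((map_eq_one_iff φ φ.injective).mp h5)
    have h5 : (e (φ x)) ^ 2 ≠ 1 := by
      rw [← map_pow]
      intro h6
      exact h4 ((map_eq_one_iff e e.injective).mp h6)
    rcases h1 _ h5 with h6 | h6
    · have h7 : φ x = x := e.injective (h6.trans hex.symm)
      rw [h7, inv_mul_cancel]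
      exact one_mem _
    · have h7 : φ x = x⁻¹ := e.injective (by rw [h6, map_inv, hex])
      rw [h7, ← mul_inv_rev, ← pow_two]
      exact (center X).inv_mem (h.sq x)
  have h2 := mem_center_iff.mp hxZ (e.symm (DihedralGroup.sr 0))
  have h3 := congrArg e h2
  rw [map_mul, map_mul, hex, MulEquiv.apply_symm_apply] at h3
  revert h3
  decide

theorem HS.two (h2 : Nat.card (center X) = 2) :
    Nonempty (X ≃* QuaternionGroup 2) ∨
      (Cfsg.IsExtraspecial 2 X ∧ Nat.card X = 32 ∧ Nat.card {x : X // orderOf x = 2} = 11) := by
  have hex : Cfsg.IsExtraspecial 2 X := ⟨h.special, h2⟩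
  obtain ⟨n, hn1, hn⟩ := exists_card_eq Nat.prime_two hex
  have hna : ¬ IsMulCommutative X := by
    intro hc
    obtain ⟨x, y, hxy⟩ := exists_comm_ne_one (by norm_num) hex
    exact hxy (commutatorElement_eq_one_iff_mul_comm.mpr (hc.is_comm.comm x y))
  have h8 : Nat.card X = 8 → Nonempty (X ≃* QuaternionGroup 2) := by
    intro h8
    rcases Cfsg.Agent.SmallSimple.OrderEight.dihedral_or_quaternion_of_card_eight h8 hna with h3 | h3
    · exact absurd h3 (not_nonempty_iff.mpr h.not_dihedral)
    · exact h3
  -- the central involution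
  obtain ⟨z, hz, hz1⟩ : ∃ z ∈ center X, z ≠ 1 := by
    by_contra hcon
    push Not at hcon
    have : center X = ⊥ := by
      rw [eq_bot_iff]
      intro z hz
      exact hcon z hz
    rw [this] at h2
    simp at h2
  have hzall : ∀ c ∈ center X, c = 1 ∨ c = z := by
    intro c hc
    by_contra hcon
    push Not at hcon
    have h3 : ({1, z, c} : Set X) ⊆ (center X : Set X) := by
      rintro y (rfl | rfl | rfl)
      · exact one_mem _
      · exact hz
      · exact hc
    have h4 := Set.ncard_le_ncard h3 (Set.toFinite _)
    have h5 : ({1, z, c} : Set X).ncard = 3 := by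
      rw [Set.ncard_insert_of_notMem (by
        rintro (h6 | h6)
        · exact hz1 h6.symm
        · exact hcon.1 h6.symm), Set.ncard_pair hcon.2.symm]
    have h6 : (center X : Set X).ncard = 2 := h2
    omega
  have hzz : z * z = 1 := h.zz hz
  have hzbot : z ∉ (⊥ : Subgroup X) := fun h3 => hz1 (mem_bot.mp h3)
  by_cases hinv : ∀ x : X, x ^ 2 = 1 → x ∈ center X
  · left
    apply h8
    have h3 := h.toHQ.card_le (center X) ⊤ le_rfl ⊥ z hz hzbot (by
      intro x _ hx
      rcases hzall _ (h.sq x) with h4 | h4
      · exact absurd (hinv x h4) hx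
      · rw [h4, hzz]
        exact one_mem _)
    rw [h2, card_top, hn] at h3
    rw [hn]
    have h4 : n = 1 := by
      by_contra hne
      have h5 : 2 ^ (2 * 2 + 1) ≤ 2 ^ (2 * n + 1) := Nat.pow_le_pow_right (by norm_num) (by omega)
      omega
    rw [h4]
    norm_num
  · push Not at hinv
    obtain ⟨u, hu2, hu⟩ := hinv
    have huu : u * u ∈ center X := by rw [← pow_two]; exact h.sq u
    have huu1 : u * u = 1 := by rw [← pow_two]; exact hu2
    set K := adj' (center X) inferInstance u huu with hK
    have hKle : Nat.card K ≤ 2 * Nat.card (center X) := card_adj' _ _ _ _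
    have hZK : center X ≤ K := le_adj' _ _ _ _
    have huK : u ∈ K := self_mem_adj' _ _ _ _
    have hKc : Nat.card K = 4 := by
      have h3 : Nat.card (center X) ∣ Nat.card K := card_dvd_of_le hZK
      have h4 : Nat.card K ≠ 2 := by
        intro h5
        have h6 : center X = K := Subgroup.eq_of_le_of_card_ge hZK (by omega)
        rw [← h6] at huK
        exact hu huK
      have h5 : 0 < Nat.card K := Nat.card_pos
      rw [h2] at h3 hKle
      omega
    have hKform : ∀ y ∈ K, ∃ c ∈ center X, y = c ∨ y = u * c := by
      rintro y (hy | hy)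
      · exact ⟨y, hy, Or.inl rfl⟩
      · exact ⟨u * y, hy, Or.inr (by rw [← mul_assoc, huu1, one_mul])⟩
    have hK2 : ∀ y ∈ K, y ^ 2 = 1 := by
      intro y hy
      obtain ⟨c, hc, rfl | rfl⟩ := hKform y hy
      · exact h.exp _ hc
      · have hcm : Commute u c := mem_center_iff.mp hc u
        rw [hcm.mul_pow, hu2, one_mul]
        exact h.exp _ hc
    have hKn : K.Normal := normal_of_comm K (fun x y => hZK (h.comm x y))
    have hKC : ∀ x ∈ (centralizer {u} : Subgroup X), x ^ 2 = 1 → x ∈ K := by
      intro x hx hx2
      apply mem_of_conj h.ne K hKn hK2 hKc x hx2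
      · intro k hk
        have hxu : Commute x u := mem_centralizer_singleton_iff.mp hx
        obtain ⟨c, hc, rfl | rfl⟩ := hKform k hk
        · exact mem_center_iff.mp hc x
        · exact hxu.mul_right (mem_center_iff.mp hc x)
      · intro g
        have h1 : x⁻¹ * (g * x * g⁻¹) = ⁅x⁻¹, g⁆ := by rw [commutatorElement_def]; group
        rw [h1]
        exact hZK (h.comm _ _)
    have hC16 := h.toHQ.card_le K (centralizer {u}) hZK ⊥ z hz hzbot (by
      intro x hx hxK
      rcases hzall _ (h.sq x) with h4 | h4
      · exact absurd (hKC x hx h4) hxK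
      · rw [h4, hzz]
        exact one_mem _)
    have hidx := h.toHQ.index_centralizer_le_card u
    rw [h.eq, h2] at hidx
    rw [hKc] at hC16
    have hCi := (centralizer {u} : Subgroup X).card_mul_index
    have h32 : Nat.card X ≤ 32 := by
      rw [← hCi]
      exact Nat.mul_le_mul hC16 hidx
    have hn2 : n ≤ 2 := by
      by_contra hcon
      have h5 : 2 ^ (2 * 3 + 1) ≤ 2 ^ (2 * n + 1) := Nat.pow_le_pow_right (by norm_num) (by omega)
      omega
    interval_cases n
    · left
      exact h8 (by rw [hn]; norm_num)
    · right
      have hX32 : Nat.card X = 32 := by rw [hn]; norm_num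
      refine ⟨hex, hX32, ?_⟩
      set C := (centralizer {u} : Subgroup X) with hCdef
      have hC : Nat.card C = 16 := by
        rw [hX32] at hCi
        have h5 : C.index ≠ 0 := index_ne_zero_of_finite
        have h6 : C.index = 1 ∨ C.index = 2 := by omega
        rcases h6 with h6 | h6
        · rw [h6] at hCi; omega
        · rw [h6] at hCi; omega
      -- outside `C`
      set T := {x : X | x ∉ C ∧ x ^ 2 = 1} with hT
      set T' := {x : X | x ∉ C ∧ x ^ 2 ≠ 1} with hT'
      have hux : ∀ x : X, x ∉ C → (x * u) ^ 2 = x ^ 2 * z := by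
        intro x hx
        rw [h.mul_sq, hu2, mul_one]
        rcases hzall _ (h.comm u x) with h5 | h5
        · exfalso
          apply hx
          rw [mem_centralizer_singleton_iff]
          exact (commutatorElement_eq_one_iff_mul_comm.mp h5).symm
        · rw [h5]
      have huC : u ∈ C := by rw [mem_centralizer_singleton_iff]
      have himg : (fun x => x * u) '' T = T' := by
        ext y
        constructor
        · rintro ⟨x, ⟨hx, hx2⟩, rfl⟩
          refine ⟨fun hc => hx ?_, ?_⟩
          · have := C.mul_mem hc (C.inv_mem huC)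
            rwa [mul_inv_cancel_right] at this
          · show (x * u) ^ 2 ≠ 1
            rw [hux x hx, hx2, one_mul]
            exact hz1
        · rintro ⟨hy, hy2⟩
          refine ⟨y * u, ⟨fun hc => hy ?_, ?_⟩, ?_⟩
          · have := C.mul_mem hc (C.inv_mem huC)
            rwa [mul_inv_cancel_right] at this
          · rw [hux y hy]
            rcases hzall _ (h.sq y) with h5 | h5
            · exact absurd h5 hy2
            · rw [h5, hzz]
          · show y * u * u = y
            rw [mul_assoc, huu1, mul_one]
      have hTT' : T.ncard = T'.ncard := by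
        rw [← himg, Set.ncard_image_of_injective _ (mul_left_injective u)]
      have hcompl := Set.ncard_add_ncard_compl (C : Set X)
      have hCn : (C : Set X).ncard = 16 := hC
      have hTu : (C : Set X)ᶜ = T ∪ T' := by
        ext x
        constructor
        · intro hx
          by_cases h5 : x ^ 2 = 1
          · exact Or.inl ⟨hx, h5⟩
          · exact Or.inr ⟨hx, h5⟩
        · rintro (hx | hx)
          · exact hx.1
          · exact hx.1
      rw [hCn, hX32, hTu, Set.ncard_union_eq (by
        rw [Set.disjoint_left]
        rintro x hx hx'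
        exact hx'.2 hx.2), ← hTT'] at hcompl
      have hT8 : T.ncard = 8 := by omega
      have hS : {x : X | x ^ 2 = 1} = (K : Set X) ∪ T := by
        ext x
        constructor
        · intro hx
          by_cases h5 : x ∈ C
          · exact Or.inl (hKC x h5 hx)
          · exact Or.inr ⟨h5, hx⟩
        · rintro (hx | hx)
          · exact hK2 x hx
          · exact hx.2
      have hKC' : ∀ x ∈ K, x ∈ C := by
        intro x hx
        have : K ≤ C := adj'_le _ _ _ _ C (center_le_centralizer _) huC
        exact this hx
      have hSn : {x : X | x ^ 2 = 1}.ncard = 12 := by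
        rw [hS, Set.ncard_union_eq, hT8]
        · have : (K : Set X).ncard = 4 := hKc
          omega
        · rw [Set.disjoint_left]
          intro x hx hx'
          exact hx'.1 (hKC' x hx)
      have hS1 : {x : X | orderOf x = 2} = {x : X | x ^ 2 = 1} \ {1} := by
        ext x
        constructor
        · intro hx
          refine ⟨?_, ?_⟩
          · show x ^ 2 = 1
            rw [← (show orderOf x = 2 from hx)]
            exact pow_orderOf_eq_one x
          · rintro rfl
            have : orderOf (1 : X) = 2 := hx
            rw [orderOf_one] at this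
            norm_num at this
        · rintro ⟨hx, hx1⟩
          have : Fact (Nat.Prime 2) := ⟨Nat.prime_two⟩
          exact orderOf_eq_prime hx hx1
      have h11 : {x : X | orderOf x = 2}.ncard = 11 := by
        rw [hS1, Set.ncard_sdiff_singleton_of_mem (by show (1 : X) ^ 2 = 1; simp), hSn]
      exact h11

theorem HS.result (hnt : Nat.card (center X) = 2 ∨ Nat.card (center X) = 4) :
    Nonempty (X ≃* QuaternionGroup 2) ∨
      (Cfsg.IsSpecial 2 X ∧ Nat.card X = 64 ∧ Nat.card {x : X // orderOf x = 2} = 3 ∧
        ∀ x : X, orderOf x = 2 → x ∈ Subgroup.center X) ∨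
      (Cfsg.IsExtraspecial 2 X ∧ Nat.card X = 32 ∧ Nat.card {x : X // orderOf x = 2} = 11) := by
  rcases hnt with h2 | h4
  · rcases h.two h2 with h3 | h3
    · exact Or.inl h3
    · exact Or.inr (Or.inr h3)
  · right; left
    have hinv : ∀ x : X, orderOf x = 2 → x ∈ center X := by
      intro x hx
      apply h.inv_mem h4
      rw [← hx]
      exact pow_orderOf_eq_one x
    refine ⟨h.special, h.card_eq h4, ?_, hinv⟩
    have hS1 : {x : X | orderOf x = 2} = (center X : Set X) \ {1} := by
      ext x
      constructor
      · intro hx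
        refine ⟨hinv x hx, ?_⟩
        rintro rfl
        have : orderOf (1 : X) = 2 := hx
        rw [orderOf_one] at this
        norm_num at this
      · rintro ⟨hx, hx1⟩
        have : Fact (Nat.Prime 2) := ⟨Nat.prime_two⟩
        exact orderOf_eq_prime (h.exp x hx) hx1
    have h3 : {x : X | orderOf x = 2}.ncard = 3 := by
      rw [hS1, Set.ncard_sdiff_singleton_of_mem (one_mem _)]
      have : (center X : Set X).ncard = 4 := h4
      omega
    exact h3

end Two

end Cfsg.Agent.H19.Scn3
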