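import Mathlib
import Cfsg.Agent.H19.Scn3.Basic

/-!
# An automorphism of order three acting without fixed points on a homocyclic abelian 2-group of rank two
-/

set_option autoImplicit false

namespace Cfsg.Agent.H19.Scn3

open Subgroup
open scoped commutatorElement

theorem apply_eq_of_apply_apply_eq {X : Type*} [Group X] (a : MulAut X) (n : ℕ) (hn : Odd n) (ha : a ^ n = 1) (v : X)
    (h : a (a v) = v) : a v = v := by
  obtain ⟨m, rfl⟩ := hn
  have h1 : ∀ k : ℕ, (a ^ (2 * k)) v = v := by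
    intro k
    induction k with
    | zero => simp
    | succ k ih =>
      rw [show 2 * (k + 1) = 2 * k + 1 + 1 by ring, pow_succ, pow_succ, MulAut.mul_apply, MulAut.mul_apply, h, ih]
  have h2 : (a ^ (2 * m + 1)) v = a v := by
    rw [pow_succ', MulAut.mul_apply, h1]
  rw [ha, MulAut.one_apply] at h2
  exact h2.symm

theorem fpf_four {X : Type*} [Group X] [Finite X] (Z : Subgroup X) (h4 : Nat.card Z = 4) (h2 : ∀ z ∈ Z, z ^ 2 = 1)
    (a : MulAut X) (haZ : ∀ z ∈ Z, a z ∈ Z) (n : ℕ) (hn : Odd n) (ha : a ^ n = 1) (hnt : ∃ z ∈ Z, a z ≠ z) :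
    ∀ z ∈ Z, a z = z → z = 1 := by
  intro z hz haz
  by_contra hz1
  obtain ⟨v, hv, hav⟩ := hnt
  have hv1 : v ≠ 1 := by
    rintro rfl
    exact hav (map_one a)
  have hzv : z ≠ v := by
    rintro rfl
    exact hav haz
  apply hav
  rcases four_elems Z h4 h2 hz hv hz1 hv1 hzv (haZ v hv) with h | h | h | h
  · exact absurd ((map_eq_one_iff a a.injective).mp h) hv1
  · exact absurd (a.injective (haz.trans h.symm)) hzv
  · exact h
  · apply apply_eq_of_apply_apply_eq a n hn ha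
    rw [h, map_mul, haz, h, ← mul_assoc]
    have := h2 z hz
    rw [sq] at this
    rw [this, one_mul]

theorem norm_four {X : Type*} [Group X] [Finite X] (Z : Subgroup X) (h4 : Nat.card Z = 4) (h2 : ∀ z ∈ Z, z ^ 2 = 1)
    (a : MulAut X) (haZ : ∀ z ∈ Z, a z ∈ Z) (hfpf : ∀ z ∈ Z, a z = z → z = 1) :
    ∀ z ∈ Z, z * a z * a (a z) = 1 := by
  intro z hz
  by_cases hz1 : z = 1
  · simp [hz1]
  have h1 : a z ≠ 1 := fun h => hz1 ((map_eq_one_iff a a.injective).mp h)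
  have h3 : z ≠ a z := fun h => hz1 (hfpf z hz h.symm)
  have hzz : z * z = 1 := by rw [← sq]; exact h2 z hz
  have hcom : z * a z = a z * z := comm_of_sq _ _ (h2 z hz) (h2 _ (haZ z hz)) (h2 _ (Z.mul_mem hz (haZ z hz)))
  rcases four_elems Z h4 h2 hz (haZ z hz) hz1 h1 h3 (haZ _ (haZ z hz)) with h | h | h | h
  · exact absurd ((map_eq_one_iff a a.injective).mp h) h1
  · exfalso
    have h5 : a (z * a z) = z * a z := by rw [map_mul, h, hcom]
    have h6 := hfpf _ (Z.mul_mem hz (haZ z hz)) h5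
    apply h3
    have h7 : z * a z = z * z := h6.trans hzz.symm
    exact (mul_left_cancel h7).symm
  · exact absurd (a.injective h).symm h3
  · rw [h, ← sq]
    exact h2 _ (Z.mul_mem hz (haZ z hz))

theorem orbit_four {X : Type*} [Group X] [Finite X] (Z : Subgroup X) (h4 : Nat.card Z = 4) (h2 : ∀ z ∈ Z, z ^ 2 = 1)
    (a : MulAut X) (haZ : ∀ z ∈ Z, a z ∈ Z) (hfpf : ∀ z ∈ Z, a z = z → z = 1) {z t : X} (hz : z ∈ Z) (hz1 : z ≠ 1)
    (ht : t ∈ Z) : t = 1 ∨ t = z ∨ t = a z ∨ t = a (a z) := by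
  have h1 : a z ≠ 1 := fun h => hz1 ((map_eq_one_iff a a.injective).mp h)
  have h3 : z ≠ a z := fun h => hz1 (hfpf z hz h.symm)
  rcases four_elems Z h4 h2 hz (haZ z hz) hz1 h1 h3 ht with h | h | h | h
  · exact Or.inl h
  · exact Or.inr (Or.inl h)
  · exact Or.inr (Or.inr (Or.inl h))
  · right; right; right
    have h5 := norm_four Z h4 h2 a haZ hfpf z hz
    have h6 : (z * a z) * (z * a z) = 1 := by rw [← sq]; exact h2 _ (Z.mul_mem hz (haZ z hz))
    rw [h]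
    exact mul_left_cancel (h6.trans h5.symm)

/-- some power has the prescribed order -/
theorem exists_pow_order {G : Type*} [Group G] (b : G) (hb : ∃ k : ℕ, b ^ 2 ^ k = 1) (j : ℕ) (hj : b ^ 2 ^ j ≠ 1) :
    ∃ i : ℕ, (b ^ 2 ^ i) ^ 2 ^ j ≠ 1 ∧ (b ^ 2 ^ i) ^ 2 ^ (j + 1) = 1 := by
  classical
  set m := Nat.find hb with hm
  have h1 : b ^ 2 ^ m = 1 := Nat.find_spec hb
  have hjm : j < m := by
    by_contra hcon
    push Not at hcon
    apply hj
    obtain ⟨d, rfl⟩ := Nat.exists_eq_add_of_le hcon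
    rw [pow_add, pow_mul, h1, one_pow]
  refine ⟨m - 1 - j, ?_, ?_⟩
  · rw [← pow_mul, ← pow_add, show m - 1 - j + j = m - 1 by omega]
    exact Nat.find_min hb (by omega)
  · rw [← pow_mul, ← pow_add, show m - 1 - j + (j + 1) = m by omega]
    exact h1

/-- An automorphism `a` of order three acting without fixed points on the abelian 2-group `B` with `Ω₁(B) = Z` of order four. -/
structure HB {X : Type*} [Group X] (a : MulAut X) (B Z : Subgroup X) : Prop where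
  comm : ∀ x ∈ B, ∀ y ∈ B, x * y = y * x
  inv : ∀ b ∈ B, a b ∈ B
  hZ : ∀ b, b ∈ Z ↔ b ∈ B ∧ b ^ 2 = 1
  card : Nat.card Z = 4
  fpfZ : ∀ z ∈ Z, a z = z → z = 1
  cube : ∀ x ∈ B, a (a (a x)) = x
  two : ∀ x : X, ∃ k : ℕ, x ^ 2 ^ k = 1

namespace HB

variable {X : Type*} [Group X] [Finite X] {a : MulAut X} {B Z : Subgroup X} (h : HB a B Z)

include h

theorem sqZ : ∀ z ∈ Z, z ^ 2 = 1 := fun z hz => ((h.hZ z).mp hz).2

theorem ZB : Z ≤ B := fun z hz => ((h.hZ z).mp hz).1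

theorem invZ : ∀ z ∈ Z, a z ∈ Z := by
  intro z hz
  rw [h.hZ] at hz ⊢
  exact ⟨h.inv z hz.1, by rw [← map_pow, hz.2, map_one]⟩

theorem fpf : ∀ b ∈ B, a b = b → b = 1 := by
  intro b hb hab
  by_contra hb1
  obtain ⟨i, hi1, hi2⟩ := exists_pow_order b (h.two b) 0 (by simpa using hb1)
  rw [pow_zero, pow_one] at hi1
  rw [zero_add, pow_one] at hi2
  apply hi1
  apply h.fpfZ
  · rw [h.hZ]
    exact ⟨B.pow_mem hb _, hi2⟩
  · rw [map_pow, hab]

theorem norm : ∀ b ∈ B, b * a b * a (a b) = 1 := by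
  intro b hb
  apply h.fpf
  · exact B.mul_mem (B.mul_mem hb (h.inv b hb)) (h.inv _ (h.inv b hb))
  · rw [map_mul, map_mul, h.cube b hb, h.comm _ (B.mul_mem (h.inv b hb) (h.inv _ (h.inv b hb))) _ hb, mul_assoc]

theorem orbit {z t : X} (hz : z ∈ Z) (hz1 : z ≠ 1) (ht : t ∈ Z) : t = 1 ∨ t = z ∨ t = a z ∨ t = a (a z) :=
  orbit_four Z h.card h.sqZ a h.invZ h.fpfZ hz hz1 ht

/-- if `B` has elements of order `2^(m+1)`, every element of `Z` is a `2^m`-th power -/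
theorem exists_root (m : ℕ) {b : X} (hb : b ∈ B) (hbm : b ^ 2 ^ m ≠ 1) {z : X} (hz : z ∈ Z) :
    ∃ r ∈ B, r ^ 2 ^ m = z := by
  obtain ⟨i, hi1, hi2⟩ := exists_pow_order b (h.two b) m hbm
  set c := b ^ 2 ^ i with hc
  have hcB : c ∈ B := B.pow_mem hb _
  have hcZ : c ^ 2 ^ m ∈ Z := by
    rw [h.hZ]
    refine ⟨B.pow_mem hcB _, ?_⟩
    rw [← pow_mul, ← pow_succ]
    exact hi2
  rcases h.orbit hcZ hi1 hz with h1 | h1 | h1 | h1
  · exact ⟨1, B.one_mem, by rw [one_pow, h1]⟩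
  · exact ⟨c, hcB, h1.symm⟩
  · exact ⟨a c, h.inv c hcB, by rw [← map_pow, h1]⟩
  · exact ⟨a (a c), h.inv _ (h.inv c hcB), by rw [← map_pow, ← map_pow, h1]⟩

/-- squares are exactly the elements killed by the `e`-th power, `2e` the exponent -/
theorem exists_exp (hB : B ≠ ⊥) : ∃ m : ℕ, (∀ c ∈ B, c ^ 2 ^ m ∈ Z) ∧ (∃ c ∈ B, c ^ 2 ^ m ≠ 1) ∧
    ∀ c ∈ B, c ^ 2 ^ m = 1 → ∃ b ∈ B, b ^ 2 = c := by
  classical
  have hex : ∃ k : ℕ, ∀ c ∈ B, c ^ 2 ^ k = 1 := by
    have h1 : IsPGroup 2 X := fun g => h.two g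
    obtain ⟨n, hn⟩ := IsPGroup.iff_card.mp h1
    refine ⟨n, fun c _ => ?_⟩
    rw [← hn]
    exact pow_card_eq_one'
  set k := Nat.find hex with hk
  have hk1 : ∀ c ∈ B, c ^ 2 ^ k = 1 := Nat.find_spec hex
  have hk0 : k ≠ 0 := by
    intro h0
    apply hB
    rw [eq_bot_iff]
    intro c hc
    have := hk1 c hc
    rw [h0] at this
    rw [mem_bot]
    simpa using this
  obtain ⟨m, hm⟩ := Nat.exists_eq_succ_of_ne_zero hk0
  have h2 : ∃ c ∈ B, c ^ 2 ^ m ≠ 1 := by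
    have := Nat.find_min hex (m := m) (by omega)
    push Not at this
    exact this
  refine ⟨m, ?_, h2, ?_⟩
  · intro c hc
    rw [h.hZ]
    refine ⟨B.pow_mem hc _, ?_⟩
    rw [← pow_mul, ← pow_succ]
    have := hk1 c hc
    rwa [hm] at this
  · obtain ⟨c₀, hc₀, hc₀m⟩ := h2
    have key : ∀ j : ℕ, j ≤ m → ∀ c ∈ B, c ^ 2 ^ j = 1 → ∃ b ∈ B, b ^ 2 = c := by
      intro j
      induction j with
      | zero =>
        intro _ c _ hc1
        exact ⟨1, B.one_mem, by simpa using hc1.symm⟩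
      | succ j ih =>
        intro hj c hc hc1
        have hz : c ^ 2 ^ j ∈ Z := by
          rw [h.hZ]
          refine ⟨B.pow_mem hc _, ?_⟩
          rw [← pow_mul, ← pow_succ]
          exact hc1
        have hc₀' : c₀ ^ 2 ^ (j + 1) ≠ 1 := by
          intro h3
          apply hc₀m
          obtain ⟨d, rfl⟩ := Nat.exists_eq_add_of_le hj
          rw [pow_add, pow_mul, h3, one_pow]
        obtain ⟨r, hr, hrz⟩ := h.exists_root (j + 1) hc₀ hc₀' hz
        have hcr : (c * (r ^ 2)⁻¹) ^ 2 ^ j = 1 := by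
          have hcm : Commute c (r ^ 2)⁻¹ := h.comm _ hc _ (B.inv_mem (B.pow_mem hr 2))
          rw [hcm.mul_pow, inv_pow, ← pow_mul, ← pow_succ', hrz, mul_inv_cancel]
        obtain ⟨b, hb, hb2⟩ := ih (by omega) _ (B.mul_mem hc (B.inv_mem (B.pow_mem hr 2))) hcr
        refine ⟨b * r, B.mul_mem hb hr, ?_⟩
        have hcm : Commute b r := h.comm _ hb _ hr
        rw [hcm.mul_pow, hb2]
        group
    exact key m le_rfl

end HB

end Cfsg.Agent.H19.Scn3
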