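import Mathlib
import Cfsg.Agent.H19.Scn3.Fpf

/-!
# A self-centralizing homocyclic normal subgroup of rank two in a 2-group with an automorphism of order three
-/

set_option autoImplicit false

namespace Cfsg.Agent.H19.Scn3

open Subgroup
open scoped commutatorElement

/-- `{b ∈ B | b ^ n = 1}` -/
def om {X : Type*} [Group X] (B : Subgroup X) (hB : ∀ x ∈ B, ∀ y ∈ B, x * y = y * x) (n : ℕ) : Subgroup X where
  carrier := {b | b ∈ B ∧ b ^ n = 1}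
  one_mem' := ⟨B.one_mem, one_pow n⟩
  mul_mem' := by
    rintro x y ⟨hx, hx1⟩ ⟨hy, hy1⟩
    exact ⟨B.mul_mem hx hy, by rw [(show Commute x y from hB x hx y hy).mul_pow, hx1, hy1, one_mul]⟩
  inv_mem' := by
    rintro x ⟨hx, hx1⟩
    exact ⟨B.inv_mem hx, by rw [inv_pow, hx1, inv_one]⟩

theorem mem_om {X : Type*} [Group X] (B : Subgroup X) (hB : ∀ x ∈ B, ∀ y ∈ B, x * y = y * x) (n : ℕ) (b : X) :
    b ∈ om B hB n ↔ b ∈ B ∧ b ^ n = 1 := Iff.rfl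

/-- `B` is moreover normal, self-centralizing, and the norm map of `⟨a⟩` is trivial on abelian quotients -/
structure HX {X : Type*} [Group X] (a : MulAut X) (B Z : Subgroup X) : Prop extends HB a B Z where
  cubeX : ∀ x, a (a (a x)) = x
  normal : B.Normal
  central : Z ≤ center X
  cen : ∀ x : X, (∀ b ∈ B, x * b = b * x) → x ∈ B
  nrm : ∀ N : Subgroup X, N.Normal → commutator X ≤ N → ∀ x : X, x * a x * a (a x) ∈ N
  ne : NE X

namespace HX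

variable {X : Type*} [Group X] [Finite X] {a : MulAut X} {B Z : Subgroup X} (h : HX a B Z)

include h

theorem zc {z : X} (hz : z ∈ Z) (g : X) : g * z = z * g := mem_center_iff.mp (h.central hz) g

theorem conj {b : X} (hb : b ∈ B) (x : X) : x * b * x⁻¹ ∈ B := h.normal.conj_mem b hb x

theorem cB {b : X} (hb : b ∈ B) (x : X) : ⁅x, b⁆ ∈ B := by
  rw [commutatorElement_def]
  exact B.mul_mem (h.conj hb x) (B.inv_mem hb)

theorem cmul (x : X) {b c : X} (hb : b ∈ B) (hc : c ∈ B) : ⁅x, b * c⁆ = ⁅x, b⁆ * ⁅x, c⁆ := by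
  have h1 : ⁅x, b * c⁆ = ⁅x, b⁆ * (b * ⁅x, c⁆ * b⁻¹) := by
    simp only [commutatorElement_def]; group
  rw [h1, h.comm b hb _ (h.cB hc x), mul_assoc ⁅x, c⁆, mul_inv_cancel, mul_one]

theorem cinv (x : X) {b : X} (hb : b ∈ B) : ⁅x, b⁻¹⁆ = ⁅x, b⁆⁻¹ := by
  have h1 := h.cmul x hb (B.inv_mem hb)
  rw [mul_inv_cancel, commutatorElement_one_right] at h1
  exact (inv_eq_of_mul_eq_one_right h1.symm).symm

theorem cpow (x : X) {b : X} (hb : b ∈ B) (n : ℕ) : ⁅x, b ^ n⁆ = ⁅x, b⁆ ^ n := by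
  induction n with
  | zero => simp
  | succ n ih => rw [pow_succ, h.cmul x (B.pow_mem hb n) hb, ih, pow_succ]

theorem cZ (x : X) {z : X} (hz : z ∈ Z) : ⁅x, z⁆ = 1 :=
  commutatorElement_eq_one_iff_mul_comm.mpr (h.zc hz x)

theorem cleft (x y : X) {c : X} (hy : ⁅y, c⁆ ∈ Z) : ⁅x * y, c⁆ = ⁅x, c⁆ * ⁅y, c⁆ := by
  have h1 : ⁅x * y, c⁆ = x * ⁅y, c⁆ * x⁻¹ * ⁅x, c⁆ := by
    simp only [commutatorElement_def]; group
  rw [h1, h.zc hy x, mul_assoc _ x, mul_inv_cancel, mul_one, h.zc hy]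

theorem mapc (x b : X) : a ⁅x, b⁆ = ⁅a x, a b⁆ := map_commutatorElement a x b

theorem sqZ' {z : X} (hz : z ∈ Z) : z * z = 1 := by rw [← sq]; exact h.sqZ z hz

theorem c4 (x : X) {c : X} (hc : c ∈ om B h.comm 4) : ⁅x, c⁆ ∈ Z := by
  rw [h.hZ]
  refine ⟨h.cB hc.1 x, ?_⟩
  rw [← h.cpow x hc.1 2]
  apply h.cZ
  rw [h.hZ]
  exact ⟨B.pow_mem hc.1 2, by rw [← pow_mul]; exact hc.2⟩

theorem om_normal (n : ℕ) : (om B h.comm n).Normal := by
  refine ⟨fun b hb g => ⟨h.conj hb.1 g, ?_⟩⟩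
  rw [conj_pow, hb.2, mul_one, mul_inv_cancel]

theorem commutator_le_K2 : commutator X ≤ centralizer (om B h.comm 4 : Set X) := by
  rw [commutator_def, commutator_le]
  intro x _ y _
  rw [mem_centralizer_iff]
  intro c hc
  have hn := h.om_normal 4
  have hc' : (y * x)⁻¹ * c * (y * x) ∈ om B h.comm 4 := by
    have := hn.conj_mem c hc (y * x)⁻¹
    rwa [inv_inv] at this
  set c' := (y * x)⁻¹ * c * (y * x) with hc'd
  have h1 : ⁅x * y, c'⁆ = ⁅y * x, c'⁆ := by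
    rw [h.cleft x y (h.c4 y hc'), h.cleft y x (h.c4 x hc'), h.zc (h.c4 y hc')]
  have h2 : (x * y) * c' * (x * y)⁻¹ = (y * x) * c' * (y * x)⁻¹ := by
    simp only [commutatorElement_def] at h1
    exact mul_right_cancel h1
  have h3 : (y * x) * c' * (y * x)⁻¹ = c := by rw [hc'd]; group
  have h4 : ⁅x, y⁆ * c * ⁅x, y⁆⁻¹ = (x * y) * c' * (x * y)⁻¹ := by
    rw [hc'd]; simp only [commutatorElement_def]; group
  rw [h2, h3] at h4
  exact (mul_inv_eq_iff_eq_mul.mp h4).symm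

theorem rel4 (x : X) {c : X} (hc : c ∈ om B h.comm 4) : ⁅x * a x * a (a x), c⁆ = 1 := by
  have hn : (centralizer (om B h.comm 4 : Set X)).Normal := by
    have := h.om_normal 4
    infer_instance
  have h1 := h.nrm _ hn h.commutator_le_K2 x
  rw [commutatorElement_eq_one_iff_mul_comm]
  exact (mem_centralizer_iff.mp h1 c hc).symm

theorem inv4 {c : X} (hc : c ∈ om B h.comm 4) : a c ∈ om B h.comm 4 :=
  ⟨h.inv c hc.1, by rw [← map_pow, hc.2, map_one]⟩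

/-- from the norm relation at `c` -/
theorem relE (x : X) {b : X} (hb : b ∈ B) (h1 : ⁅x, a b⁆ ∈ Z) (h2 : ⁅x, a (a b)⁆ ∈ Z)
    (hrel : ⁅x * a x * a (a x), b⁆ = 1) (hx : ⁅x, b⁆ = 1) : ⁅x, a b⁆ = 1 ∧ ⁅x, a (a b)⁆ = 1 := by
  have e1 : ⁅a (a x), b⁆ = a (a ⁅x, a b⁆) := by rw [h.mapc, h.mapc, h.cubeX]
  have e2 : ⁅a x, b⁆ = a ⁅x, a (a b)⁆ := by rw [h.mapc, h.cubeX]
  have z1 : ⁅a (a x), b⁆ ∈ Z := by rw [e1]; exact h.invZ _ (h.invZ _ h1)
  have z2 : ⁅a x, b⁆ ∈ Z := by rw [e2]; exact h.invZ _ h2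
  rw [h.cleft _ _ z1, h.cleft _ _ z2, hx, one_mul, e1, e2] at hrel
  have h3 : ⁅x, b⁆ * ⁅x, a b⁆ * ⁅x, a (a b)⁆ = 1 := by
    rw [← h.cmul x hb (h.inv b hb), ← h.cmul x (B.mul_mem hb (h.inv b hb)) (h.inv _ (h.inv b hb)), h.norm b hb,
      commutatorElement_one_right]
  rw [hx, one_mul] at h3
  have h4 : ⁅x, a (a b)⁆ = ⁅x, a b⁆ := by
    have h5 := h.sqZ' h1
    exact mul_left_cancel (h3.trans h5.symm)
  rw [h4] at hrel
  have h6 := h.norm _ (h.ZB h1)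
  rw [mul_assoc, hrel, mul_one] at h6
  exact ⟨h6, by rw [h4, h6]⟩

/-- a commutator map trivial at one element of maximal order is trivial -/
theorem claimf (Ω : Subgroup X) (hΩB : Ω ≤ B) (hΩa : ∀ c ∈ Ω, a c ∈ Ω) (e : ℕ) (heZ : ∀ c ∈ Ω, c ^ e ∈ Z) (x : X)
    (hker : ∀ c ∈ Ω, c ^ e = 1 → ⁅x, c⁆ = 1) (hval : ∀ c ∈ Ω, ⁅x, c⁆ ∈ Z)
    (hrel : ∀ c ∈ Ω, ⁅x * a x * a (a x), c⁆ = 1) {b : X} (hb : b ∈ Ω) (hbe : b ^ e ≠ 1) (hxb : ⁅x, b⁆ = 1) :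
    ∀ c ∈ Ω, ⁅x, c⁆ = 1 := by
  obtain ⟨h1, h2⟩ := h.relE x (hΩB hb) (hval _ (hΩa b hb)) (hval _ (hΩa _ (hΩa b hb))) (hrel b hb) hxb
  have key : ∀ c ∈ Ω, ∀ d ∈ Ω, ⁅x, d⁆ = 1 → c ^ e = d ^ e → ⁅x, c⁆ = 1 := by
    intro c hc d hd hxd hcd
    have h3 : (c * d⁻¹) ^ e = 1 := by
      have hcm : Commute c d⁻¹ := h.comm c (hΩB hc) _ (B.inv_mem (hΩB hd))
      rw [hcm.mul_pow, inv_pow, hcd, mul_inv_cancel]
    have h4 := hker _ (Ω.mul_mem hc (Ω.inv_mem hd)) h3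
    rw [h.cmul x (hΩB hc) (B.inv_mem (hΩB hd)), h.cinv x (hΩB hd), hxd, inv_one, mul_one] at h4
    exact h4
  intro c hc
  rcases h.orbit (heZ b hb) hbe (heZ c hc) with h3 | h3 | h3 | h3
  · exact hker c hc h3
  · exact key c hc b hb hxb h3
  · exact key c hc (a b) (hΩa b hb) h1 (by rw [h3, map_pow])
  · exact key c hc (a (a b)) (hΩa _ (hΩa b hb)) h2 (by rw [h3, map_pow, map_pow])

theorem claim4 (x : X) {b : X} (hb : b ∈ om B h.comm 4) (hb2 : b ^ 2 ≠ 1) (hxb : ⁅x, b⁆ = 1) :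
    ∀ c ∈ om B h.comm 4, ⁅x, c⁆ = 1 := by
  apply h.claimf (om B h.comm 4) (fun c hc => hc.1) (fun c hc => h.inv4 hc) 2 _ x _ (fun c hc => h.c4 x hc)
    (fun c hc => h.rel4 x hc) hb hb2 hxb
  · intro c hc
    rw [h.hZ]
    exact ⟨B.pow_mem hc.1 2, by rw [← pow_mul]; exact hc.2⟩
  · intro c hc hc2
    exact h.cZ x ((h.hZ c).mpr ⟨hc.1, hc2⟩)

/-- If `B` has exponent four, all squares lie in `Z`. -/
theorem sq_mem (h4 : ∀ b ∈ B, b ^ 4 = 1) (x : X) : x ^ 2 ∈ Z := by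
  have h1 : x ^ 2 ∈ B := by
    apply h.cen
    intro b hb
    have hbo : b ∈ om B h.comm 4 := ⟨hb, h4 b hb⟩
    rw [← commutatorElement_eq_one_iff_mul_comm, sq, h.cleft x x (h.c4 x hbo), h.sqZ' (h.c4 x hbo)]
  by_cases hx : x ∈ B
  · rw [h.hZ]
    exact ⟨h1, by rw [← pow_mul]; exact h4 x hx⟩
  · rw [h.hZ]
    refine ⟨h1, ?_⟩
    by_contra h2
    apply hx
    apply h.cen
    intro b hb
    rw [← commutatorElement_eq_one_iff_mul_comm]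
    apply h.claim4 x (b := x ^ 2) ⟨h1, h4 _ h1⟩ h2 _ b ⟨hb, h4 b hb⟩
    rw [commutatorElement_eq_one_iff_mul_comm]
    exact (Commute.refl x).pow_right 2

theorem exists_order_four {b : X} (hb : b ∈ B) (hb2 : b ^ 2 ≠ 1) :
    ∃ i : ℕ, (b ^ 2 ^ i) ∈ om B h.comm 4 ∧ (b ^ 2 ^ i) ^ 2 ≠ 1 := by
  obtain ⟨i, hi1, hi2⟩ := exists_pow_order b (h.two b) 1 (by simpa using hb2)
  exact ⟨i, ⟨B.pow_mem hb _, by simpa using hi2⟩, by simpa using hi1⟩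

/-- if `x` centralizes `Ω₂(B)` and inverts `b ∈ B` then `b² = 1` -/
theorem sq_eq_one_of_inverts {x : X} (hx : ∀ c ∈ om B h.comm 4, ⁅x, c⁆ = 1) {b : X} (hb : b ∈ B)
    (hinv : x * b * x⁻¹ = b⁻¹) : b ^ 2 = 1 := by
  by_contra hb2
  obtain ⟨i, hi, hi2⟩ := h.exists_order_four hb hb2
  apply hi2
  have h1 := hx _ hi
  rw [commutatorElement_def, ← conj_pow, hinv, inv_pow] at h1
  have h2 : (b ^ 2 ^ i)⁻¹ * (b ^ 2 ^ i)⁻¹ = 1 := h1
  rw [← mul_inv_rev, inv_eq_one] at h2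
  rw [sq]
  exact h2

/-- an element `x` centralizing `Ω₂(B)` with `x² = 1` and `[x, X] ≤ B` lies in `B` -/
theorem mem_of_involution {x : X} (hx : ∀ c ∈ om B h.comm 4, ⁅x, c⁆ = 1) (hx2 : x ^ 2 = 1)
    (hxB : ∀ g, x⁻¹ * (g * x * g⁻¹) ∈ B) : x ∈ B := by
  apply h.ZB
  have hxx : x * x = 1 := by rw [← sq]; exact hx2
  have hxi : x⁻¹ = x := inv_eq_of_mul_eq_one_left hxx
  apply mem_of_conj h.ne Z (by
      refine ⟨fun z hz g => ?_⟩
      rw [h.zc hz g, mul_assoc, mul_inv_cancel, mul_one]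
      exact hz) h.sqZ h.card x hx2 (fun k hk => h.zc hk x)
  intro g
  rw [h.hZ]
  refine ⟨hxB g, ?_⟩
  apply h.sq_eq_one_of_inverts hx (hxB g)
  set c := x⁻¹ * (g * x * g⁻¹) with hc
  have h1 : x * c = g * x * g⁻¹ := by rw [hc]; group
  have h2 : (x * c) * (x * c) = 1 := by
    rw [h1]
    calc g * x * g⁻¹ * (g * x * g⁻¹) = g * (x * x) * g⁻¹ := by group
      _ = 1 := by rw [hxx]; group
  have h3 : x * c * x * c = 1 := by rw [mul_assoc (x * c)]; exact h2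
  rw [hxi]
  exact eq_inv_of_mul_eq_one_left h3

/-- Fixed cosets: `x⁻¹ a(x) ∈ B`, `[x, X] ≤ B`, `x² ∈ B` imply `x ∈ B`. -/
theorem mem_of_fixed_coset {x : X} (hx : x⁻¹ * a x ∈ B) (hx2 : x ^ 2 ∈ B) (hxB : ∀ g, x⁻¹ * (g * x * g⁻¹) ∈ B) :
    x ∈ B := by
  -- find a fixed point `y` in the coset `x B`
  have hsurj : ∃ b ∈ B, b * (a b)⁻¹ = x⁻¹ * a x := by
    let f : B → B := fun b => ⟨b * (a b)⁻¹, B.mul_mem b.2 (B.inv_mem (h.inv _ b.2))⟩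
    have hinj : Function.Injective f := by
      intro b c hbc
      have h1 : (b : X) * (a b)⁻¹ = c * (a c)⁻¹ := congrArg Subtype.val hbc
      have h2 : a ((c : X)⁻¹ * b) = (c : X)⁻¹ * b := by
        rw [map_mul, map_inv]
        have h3 : (c : X)⁻¹ * (b : X) = (a c)⁻¹ * a b := by
          have h4 : (b : X) = c * (a c)⁻¹ * a b := by rw [← h1]; group
          calc (c : X)⁻¹ * (b : X) = (c : X)⁻¹ * (c * (a c)⁻¹ * a b) := by rw [← h4]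
            _ = _ := by group
        exact h3.symm
      have h5 := h.fpf _ (B.mul_mem (B.inv_mem c.2) b.2) h2
      exact Subtype.ext (inv_mul_eq_one.mp h5).symm
    obtain ⟨b, hb⟩ := Finite.surjective_of_injective hinj ⟨x⁻¹ * a x, hx⟩
    exact ⟨b, b.2, congrArg Subtype.val hb⟩
  obtain ⟨b, hb, hbx⟩ := hsurj
  set y := x * b with hy
  have hay : a y = y := by
    rw [hy, map_mul]
    have h1 : a x = x * (b * (a b)⁻¹) := by rw [hbx]; group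
    rw [h1]; group
  have hy2B : y ^ 2 ∈ B := by
    have h1 : y ^ 2 = x ^ 2 * ((x⁻¹ * b * x⁻¹⁻¹) * b) := by rw [hy, sq, sq]; group
    rw [h1]
    exact B.mul_mem hx2 (B.mul_mem (h.conj hb _) hb)
  have hy2 : y ^ 2 = 1 := h.fpf _ hy2B (by rw [map_pow, hay])
  have hyB : ∀ g, y⁻¹ * (g * y * g⁻¹) ∈ B := by
    intro g
    have h1 : y⁻¹ * (g * y * g⁻¹) = (b⁻¹ * (x⁻¹ * (g * x * g⁻¹)) * b⁻¹⁻¹) * (b⁻¹ * (g * b * g⁻¹)) := by
      rw [hy]; group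
    rw [h1]
    exact B.mul_mem (h.conj (hxB g) _) (B.mul_mem (B.inv_mem hb) (h.conj hb g))
  have hy4 : ∀ c ∈ om B h.comm 4, ⁅y, c⁆ = 1 := by
    intro c hc
    have h1 := h.rel4 y hc
    rw [hay, hay] at h1
    have h2 : y * y * y = y := by rw [← sq, hy2, one_mul]
    rwa [h2] at h1
  have hyB' := h.mem_of_involution hy4 hy2 hyB
  have h1 : x = y * b⁻¹ := by rw [hy]; group
  rw [h1]
  exact B.mul_mem hyB' (B.inv_mem hb)

/-- if `x²` centralizes `b` and `d = [x, b]` then `x` inverts `d` -/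
theorem inverts_of_sq {x : X} (hx2 : x ^ 2 ∈ B) {b : X} (hb : b ∈ B) : x * ⁅x, b⁆ * x⁻¹ = ⁅x, b⁆⁻¹ := by
  have h1 : x * x * b = b * (x * x) := by
    rw [← sq]
    exact h.comm _ hx2 _ hb
  rw [eq_inv_iff_mul_eq_one, commutatorElement_def]
  calc x * (x * b * x⁻¹ * b⁻¹) * x⁻¹ * (x * b * x⁻¹ * b⁻¹) = (x * x * b) * x⁻¹ * x⁻¹ * b⁻¹ := by group
    _ = 1 := by rw [h1]; group

/-- Step 1: if `B` has elements of order 8 then elements with square in `B` centralize `Ω₂(B)`. -/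
theorem step1 (h8 : ∃ b ∈ B, b ^ 4 ≠ 1) {x : X} (hx2 : x ^ 2 ∈ B) : ∀ c ∈ om B h.comm 4, ⁅x, c⁆ = 1 := by
  by_contra hcon
  have hf : ∀ c ∈ om B h.comm 4, c ^ 2 ≠ 1 → ⁅x, c⁆ ≠ 1 := fun c hc hc2 hxc =>
    hcon (h.claim4 x hc hc2 hxc)
  obtain ⟨b', hb', hb'4⟩ := h8
  obtain ⟨i, hi1, hi2⟩ := exists_pow_order b' (h.two b') 2 (by simpa using hb'4)
  set b := b' ^ 2 ^ i with hb
  have hbB : b ∈ B := B.pow_mem hb' _
  have hb4 : b ^ 4 ≠ 1 := by simpa using hi1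
  have hb8 : b ^ 8 = 1 := by simpa using hi2
  clear_value b
  -- general facts on an element `u` of order eight
  have key : ∀ u ∈ B, u ^ 4 ≠ 1 → u ^ 8 = 1 → ⁅x, u⁆ ∈ om B h.comm 4 ∧ ⁅x, u⁆ ^ 2 = ⁅x, u ^ 2⁆ ∧ ⁅x, u⁆ ^ 2 ≠ 1 := by
    intro u hu hu4 hu8
    have h1 : u ^ 2 ∈ om B h.comm 4 := ⟨B.pow_mem hu 2, by rw [← pow_mul]; exact hu8⟩
    have h2 : ⁅x, u⁆ ^ 2 = ⁅x, u ^ 2⁆ := (h.cpow x hu 2).symm
    refine ⟨⟨h.cB hu x, ?_⟩, h2, ?_⟩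
    · rw [show 4 = 2 * 2 by rfl, pow_mul, h2]
      exact h.sqZ _ (h.c4 x h1)
    · rw [h2]
      apply hf _ h1
      rw [← pow_mul]
      exact hu4
  obtain ⟨d0, d0s, d0n⟩ := key b hbB hb4 hb8
  obtain ⟨d1, d1s, d1n⟩ := key (a b) (h.inv b hbB) (by
    rw [← map_pow]
    exact fun hh => hb4 ((map_eq_one_iff a a.injective).mp hh)) (by rw [← map_pow, hb8, map_one])
  have hinvd : ∀ u ∈ B, x * ⁅x, u⁆ * x⁻¹ = ⁅x, u⁆⁻¹ := fun u hu => h.inverts_of_sq hx2 hu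
  -- the two squares differ
  have hne : ⁅x, b⁆ ^ 2 ≠ ⁅x, a b⁆ ^ 2 := by
    rw [d0s, d1s]
    intro heq
    have h1 : ⁅x, b ^ 2 * ((a b) ^ 2)⁻¹⁆ = 1 := by
      rw [h.cmul x (B.pow_mem hbB 2) (B.inv_mem (B.pow_mem (h.inv b hbB) 2)), h.cinv x (B.pow_mem (h.inv b hbB) 2),
        heq, mul_inv_cancel]
    have hmem : b ^ 2 * ((a b) ^ 2)⁻¹ ∈ om B h.comm 4 := by
      apply (om B h.comm 4).mul_mem
      · exact ⟨B.pow_mem hbB 2, by rw [← pow_mul]; exact hb8⟩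
      · apply (om B h.comm 4).inv_mem
        refine ⟨B.pow_mem (h.inv b hbB) 2, ?_⟩
        rw [← pow_mul, ← map_pow, hb8, map_one]
    by_cases h2 : (b ^ 2 * ((a b) ^ 2)⁻¹) ^ 2 = 1
    · have hcm : Commute (b ^ 2) ((a b) ^ 2)⁻¹ := h.comm _ (B.pow_mem hbB 2) _ (B.inv_mem (B.pow_mem (h.inv b hbB) 2))
      rw [hcm.mul_pow, inv_pow, ← pow_mul, ← pow_mul, mul_inv_eq_one] at h2
      have h3 : a (b ^ 4) = b ^ 4 := by rw [map_pow]; exact h2.symm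
      exact hb4 (h.fpf _ (B.pow_mem hbB 4) h3)
    · exact hf _ hmem h2 h1
  -- `x` inverts `Ω₂`
  have hd0Z : ⁅x, b⁆ ^ 2 ∈ Z := (h.hZ _).mpr ⟨B.pow_mem d0.1 2, by rw [← pow_mul]; exact d0.2⟩
  have hd1Z : ⁅x, a b⁆ ^ 2 ∈ Z := (h.hZ _).mpr ⟨B.pow_mem d1.1 2, by rw [← pow_mul]; exact d1.2⟩
  have hmulinv : ∀ u ∈ B, ∀ v ∈ B, x * u * x⁻¹ = u⁻¹ → x * v * x⁻¹ = v⁻¹ → x * (u * v) * x⁻¹ = (u * v)⁻¹ := by
    intro u hu v hv hu1 hv1
    calc x * (u * v) * x⁻¹ = (x * u * x⁻¹) * (x * v * x⁻¹) := by group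
      _ = u⁻¹ * v⁻¹ := by rw [hu1, hv1]
      _ = (u * v)⁻¹ := by rw [← mul_inv_rev, h.comm v hv u hu]
  have hZinv : ∀ z ∈ Z, x * z * x⁻¹ = z⁻¹ := by
    intro z hz
    rw [h.zc hz x, mul_assoc, mul_inv_cancel, mul_one]
    exact (inv_eq_of_mul_eq_one_left (h.sqZ' hz)).symm
  have hstep : ∀ c ∈ om B h.comm 4, ∀ d ∈ om B h.comm 4, x * d * x⁻¹ = d⁻¹ → c ^ 2 = d ^ 2 → x * c * x⁻¹ = c⁻¹ := by
    intro c hc d hd hxd hcd
    have hz : c * d⁻¹ ∈ Z := by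
      rw [h.hZ]
      refine ⟨B.mul_mem hc.1 (B.inv_mem hd.1), ?_⟩
      have hcm : Commute c d⁻¹ := h.comm c hc.1 _ (B.inv_mem hd.1)
      rw [hcm.mul_pow, inv_pow, hcd, mul_inv_cancel]
    have h1 := hmulinv _ (h.ZB hz) d hd.1 (hZinv _ hz) hxd
    have h2 : c * d⁻¹ * d = c := by group
    rwa [h2] at h1
  have hall : ∀ c ∈ om B h.comm 4, x * c * x⁻¹ = c⁻¹ := by
    intro c hc
    have hcZ : c ^ 2 ∈ Z := (h.hZ _).mpr ⟨B.pow_mem hc.1 2, by rw [← pow_mul]; exact hc.2⟩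
    rcases four_elems Z h.card h.sqZ hd0Z hd1Z d0n d1n hne hcZ with h1 | h1 | h1 | h1
    · exact hZinv c ((h.hZ c).mpr ⟨hc.1, h1⟩)
    · exact hstep c hc _ d0 (hinvd b hbB) h1
    · exact hstep c hc _ d1 (hinvd _ (h.inv b hbB)) h1
    · refine hstep c hc (⁅x, b⁆ * ⁅x, a b⁆) ((om B h.comm 4).mul_mem d0 d1)
        (hmulinv _ d0.1 _ d1.1 (hinvd b hbB) (hinvd _ (h.inv b hbB))) ?_
      rw [h1]
      have hcm : Commute ⁅x, b⁆ ⁅x, a b⁆ := h.comm _ d0.1 _ d1.1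
      rw [hcm.mul_pow]
  -- contradiction at `b²`
  have hc : b ^ 2 ∈ om B h.comm 4 := ⟨B.pow_mem hbB 2, by rw [← pow_mul]; exact hb8⟩
  set c := b ^ 2 with hcd
  have h1 := h.rel4 x hc
  have hax : ∀ c ∈ om B h.comm 4, a x * c * (a x)⁻¹ = c⁻¹ := by
    intro c hc
    have h2 := hall _ (h.inv4 (h.inv4 hc))
    have h3 := congrArg a h2
    rw [map_mul, map_mul, map_inv, map_inv, h.cubeX] at h3
    exact h3
  have haax : ∀ c ∈ om B h.comm 4, a (a x) * c * (a (a x))⁻¹ = c⁻¹ := by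
    intro c hc
    have h2 := hax _ (h.inv4 (h.inv4 hc))
    have h3 := congrArg a h2
    rw [map_mul, map_mul, map_inv, map_inv, h.cubeX] at h3
    exact h3
  have h2 : (x * a x * a (a x)) * c * (x * a x * a (a x))⁻¹ = c⁻¹ := by
    calc (x * a x * a (a x)) * c * (x * a x * a (a x))⁻¹
        = x * (a x * (a (a x) * c * (a (a x))⁻¹) * (a x)⁻¹) * x⁻¹ := by group
      _ = c⁻¹ := by
        rw [haax c hc, hax _ ((om B h.comm 4).inv_mem hc), inv_inv, hall c hc]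
  rw [commutatorElement_def, h2] at h1
  have h3 : c ^ 2 = 1 := by
    rw [← mul_inv_rev, inv_eq_one] at h1
    rw [sq]
    exact h1
  rw [hcd, ← pow_mul] at h3
  exact hb4 h3

/-- Step 2 -/
theorem step2 (h8 : ∃ b ∈ B, b ^ 4 ≠ 1) {x : X} (hx2 : x ^ 2 ∈ B) {b : X} (hb : b ∈ B) : ⁅x, b⁆ ∈ Z := by
  rw [h.hZ]
  exact ⟨h.cB hb x, h.sq_eq_one_of_inverts (h.step1 h8 hx2) (h.cB hb x) (h.inverts_of_sq hx2 hb)⟩

/-- Step 3: no elements outside `B` with `x² ∈ B`, `[x, X] ≤ B` if `B` has exponent at least 8. -/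
theorem step3 (h8 : ∃ b ∈ B, b ^ 4 ≠ 1) {x : X} (hx2 : x ^ 2 ∈ B) (hxB : ∀ g : X, ⁅g, x⁆ ∈ B) : x ∈ B := by
  by_contra hx
  have h1 := h.step1 h8 hx2
  have hnB := h.normal
  -- `L`: the elements whose class mod `B` is central with trivial square
  have hLa : ∀ y : X, (∀ g : X, ⁅g, y⁆ ∈ B) → ∀ g : X, ⁅g, a y⁆ ∈ B := by
    intro y hy g
    have h2 := h.inv _ (hy (a (a g)))
    rw [h.mapc, h.cubeX] at h2
    exact h2
  have ha2 : ∀ y : X, y ^ 2 ∈ B → (a y) ^ 2 ∈ B := by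
    intro y hy
    rw [← map_pow]
    exact h.inv _ hy
  -- the norm of `x` lies in `B`
  have hq : ∀ y : X, (∀ g : X, ⁅g, y⁆ ∈ B) → ∀ g : X ⧸ B, Commute g (QuotientGroup.mk' B y) := by
    intro y hy g
    obtain ⟨g, rfl⟩ := QuotientGroup.mk'_surjective B g
    show _ * _ = _ * _
    rw [← commutatorElement_eq_one_iff_mul_comm, ← map_commutatorElement, QuotientGroup.mk'_apply,
      QuotientGroup.eq_one_iff]
    exact hy g
  have hqi : ∀ y : X, (∀ g : X ⧸ B, Commute g (QuotientGroup.mk' B y)) → ∀ g : X, ⁅g, y⁆ ∈ B := by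
    intro y hy g
    rw [← QuotientGroup.eq_one_iff, ← QuotientGroup.mk'_apply, map_commutatorElement,
      commutatorElement_eq_one_iff_mul_comm]
    exact hy _
  have hax := hLa x hxB
  have haax := hLa _ hax
  have q0 := hq x hxB
  have q1 := hq _ hax
  have q2 := hq _ haax
  have sq0 : (QuotientGroup.mk' B x) ^ 2 = 1 := by
    rw [← map_pow, QuotientGroup.mk'_apply, QuotientGroup.eq_one_iff]; exact hx2
  have sq1 : (QuotientGroup.mk' B (a x)) ^ 2 = 1 := by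
    rw [← map_pow, QuotientGroup.mk'_apply, QuotientGroup.eq_one_iff]; exact ha2 _ hx2
  have sq2 : (QuotientGroup.mk' B (a (a x))) ^ 2 = 1 := by
    rw [← map_pow, QuotientGroup.mk'_apply, QuotientGroup.eq_one_iff]; exact ha2 _ (ha2 _ hx2)
  have ht : x * a x * a (a x) ∈ B := by
    apply h.mem_of_fixed_coset
    · rw [← QuotientGroup.eq_one_iff, ← QuotientGroup.mk'_apply]
      simp only [map_mul, map_inv, h.cubeX]
      rw [inv_mul_eq_one, mul_assoc, (q0 _).eq]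
    · rw [← QuotientGroup.eq_one_iff, ← QuotientGroup.mk'_apply]
      simp only [map_mul, map_pow]
      rw [(q2 _).mul_pow, (q1 _).mul_pow, sq0, sq1, sq2]
      simp
    · intro g
      rw [← QuotientGroup.eq_one_iff, ← QuotientGroup.mk'_apply]
      have hc : Commute (QuotientGroup.mk' B g) (QuotientGroup.mk' B (x * a x * a (a x))) := by
        simp only [map_mul]
        exact ((q0 _).mul_right (q1 _)).mul_right (q2 _)
      rw [map_mul, map_mul, map_mul, map_inv, map_inv, hc.eq]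
      group
  -- kernel of `[x, ·]` on `B`
  have hBne : B ≠ ⊥ := by
    rintro hbot
    obtain ⟨b, hb, hb4⟩ := h8
    rw [hbot, mem_bot] at hb
    exact hb4 (by rw [hb, one_pow])
  obtain ⟨m, hmZ, ⟨c₀, hc₀, hc₀m⟩, hsq⟩ := h.exists_exp hBne
  have hrel : ∀ c ∈ B, ⁅x * a x * a (a x), c⁆ = 1 := by
    intro c hc
    rw [commutatorElement_eq_one_iff_mul_comm]
    exact h.comm _ ht _ hc
  have hkernel : ∀ c ∈ B, c ^ 2 ^ m = 1 → ⁅x, c⁆ = 1 := by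
    intro c hc hcm
    obtain ⟨b, hb, rfl⟩ := hsq c hc hcm
    rw [h.cpow x hb 2]
    exact h.sqZ _ (h.step2 h8 hx2 hb)
  have hfin : ∀ b ∈ B, ⁅x, b⁆ = 1 → b ^ 2 ^ m = 1 := by
    intro b hb hxb
    by_contra hbm
    apply hx
    apply h.cen
    intro c hc
    rw [← commutatorElement_eq_one_iff_mul_comm]
    exact h.claimf B le_rfl h.inv (2 ^ m) hmZ x hkernel (fun c hc => h.step2 h8 hx2 hc) hrel hb hbm hxb c hc
  have hxx : ⁅x, x ^ 2⁆ = 1 := by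
    rw [commutatorElement_eq_one_iff_mul_comm]
    exact (Commute.refl x).pow_right 2
  obtain ⟨b₁, hb₁, hb₁x⟩ := hsq _ hx2 (hfin _ hx2 hxx)
  -- `x² = b₁²`
  obtain ⟨b₈, hb₈, hb₈4⟩ := h8
  have hz := h.step2 ⟨b₈, hb₈, hb₈4⟩ hx2 hb₁
  obtain ⟨r, hr, hrz⟩ := h.exists_root 1 hb₈ (by
    intro hh
    apply hb₈4
    rw [pow_one] at hh
    rw [show 4 = 2 * 2 by rfl, pow_mul, hh, one_pow]) hz
  rw [pow_one] at hrz
  have hr4 : r ∈ om B h.comm 4 := ⟨hr, by rw [show 4 = 2 * 2 by rfl, pow_mul, hrz]; exact h.sqZ _ hz⟩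
  have hxr := h1 r hr4
  -- `b = b₁⁻¹ r⁻¹`, `(x b)² = 1`
  set b := b₁⁻¹ * r⁻¹ with hb
  have hbB : b ∈ B := B.mul_mem (B.inv_mem hb₁) (B.inv_mem hr)
  have hxb : ⁅x, b⁆ = ⁅x, b₁⁆ := by
    rw [hb, h.cmul x (B.inv_mem hb₁) (B.inv_mem hr), h.cinv x hb₁, h.cinv x hr, hxr, inv_one, mul_one]
    exact inv_eq_of_mul_eq_one_left (h.sqZ' hz)
  have hb2 : b ^ 2 * x ^ 2 = ⁅x, b₁⁆ := by
    have hcm : Commute b₁⁻¹ r⁻¹ := h.comm _ (B.inv_mem hb₁) _ (B.inv_mem hr)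
    rw [hb, hcm.mul_pow, inv_pow, inv_pow, hrz, ← hb₁x]
    have h2 : Commute (b₁ ^ 2)⁻¹ (⁅x, b₁⁆⁻¹) := h.comm _ (B.inv_mem (B.pow_mem hb₁ 2)) _ (B.inv_mem (h.ZB hz))
    rw [h2.eq, mul_assoc, inv_mul_cancel, mul_one]
    exact inv_eq_of_mul_eq_one_left (h.sqZ' hz)
  have hinvol : (x * b) ^ 2 = 1 := by
    have h2 : (x * b) ^ 2 = ⁅x, b⁆ * b * x ^ 2 * b := by
      rw [commutatorElement_def, sq, sq]; group
    rw [h2, hxb, mul_assoc, mul_assoc, h.comm _ hx2 _ hbB, ← mul_assoc b b, ← sq, hb2]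
    exact h.sqZ' hz
  have hxb2 : (x * b) ^ 2 ∈ B := by rw [hinvol]; exact B.one_mem
  have hxbB := h.mem_of_involution (h.step1 ⟨b₈, hb₈, hb₈4⟩ hxb2) hinvol (by
    intro g
    have h2 : (x * b)⁻¹ * (g * (x * b) * g⁻¹) =
        (b⁻¹ * (x⁻¹ * ⁅g, x⁆ * x⁻¹⁻¹) * b⁻¹⁻¹) * (b⁻¹ * (g * b * g⁻¹)) := by
      rw [commutatorElement_def]; group
    rw [h2]
    exact B.mul_mem (h.conj (h.conj (hxB g) _) _) (B.mul_mem (B.inv_mem hbB) (h.conj hbB g)))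
  apply hx
  have h2 : x = x * b * b⁻¹ := by group
  rw [h2]
  exact B.mul_mem hxbB (B.inv_mem hbB)

/-- If `X ≠ B` then `B` has exponent four. -/
theorem pow_four (hBX : B ≠ ⊤) : ∀ b ∈ B, b ^ 4 = 1 := by
  by_contra hcon
  push Not at hcon
  have hnB := h.normal
  have hX : IsPGroup 2 X := fun g => h.two g
  have : Fact (Nat.Prime 2) := ⟨Nat.prime_two⟩
  have hQ : IsPGroup 2 (X ⧸ B) := hX.to_quotient B
  have hnt : Nontrivial (X ⧸ B) := by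
    rw [← not_subsingleton_iff_nontrivial]
    intro hs
    exact hBX (QuotientGroup.subgroup_eq_top_of_subsingleton B hs)
  have hc := hQ.center_nontrivial
  have hcp : IsPGroup 2 (center (X ⧸ B)) := hQ.to_subgroup _
  obtain ⟨z, hz⟩ : ∃ z : center (X ⧸ B), orderOf z = 2 := by
    obtain ⟨n, hn⟩ := IsPGroup.iff_card.mp hcp
    have hn0 : n ≠ 0 := by
      rintro rfl
      rw [pow_zero] at hn
      have := Finite.one_lt_card_iff_nontrivial.mpr hc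
      omega
    exact exists_prime_orderOf_dvd_card' 2 (by rw [hn]; exact dvd_pow_self 2 hn0)
  obtain ⟨x, hx⟩ := QuotientGroup.mk'_surjective B (z : X ⧸ B)
  have hxB : x ∉ B := by
    intro hxB
    have h1 : (z : X ⧸ B) = 1 := by
      rw [← hx, QuotientGroup.mk'_apply, QuotientGroup.eq_one_iff]; exact hxB
    have h2 : z = 1 := Subtype.ext h1
    rw [h2, orderOf_one] at hz
    norm_num at hz
  apply hxB
  apply h.step3 hcon
  · rw [← QuotientGroup.eq_one_iff, ← QuotientGroup.mk'_apply, map_pow, hx, ← hz, ← orderOf_coe]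
    exact pow_orderOf_eq_one _
  · intro g
    rw [← QuotientGroup.eq_one_iff, ← QuotientGroup.mk'_apply, map_commutatorElement,
      commutatorElement_eq_one_iff_mul_comm, hx]
    exact mem_center_iff.mp z.2 _

end HX

end Cfsg.Agent.H19.Scn3
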